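import Groth.Agent.CycB.P1Fibre
import Groth.Agent.CycB.SetupLft
import Groth.Agent.Dix.ProjProper
import Groth.Agent.CycB.PtClosure

/-!
# Locally finite families of integral closed subschemes of `P^1_X`

* `exists_divFun_or_eq`: for `W` integral closed in `P^1_X` of `δ`-dimension `k + 1`, not over `0`
  or `∞`, the difference `[W_0]_k - [W_∞]_k` is a principal divisor on the closure of the image of
  the generic point of `W`, or it is zero;
* `ratEquivZero_of_family`: a locally finite sum of such differences is rationally equivalent to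
  zero.
-/

set_option autoImplicit false

universe u

open CategoryTheory AlgebraicGeometry CategoryTheory.Limits

namespace Groth.Agent.Old.H25.CoreA

open P1 Groth.Agent.CycB Groth.Agent.CycB.P1Chart Groth.Agent.CycB.GraphPt
  Groth.Agent.CycB.GraphFac Groth.Agent.CycB.GraphMult Groth.Agent.CycB.GraphOrd
  Groth.Agent.CycB.P1PtClosure Groth.Agent.CycB.ClosedFac Groth.Agent.CycB.P1Fibre
  Groth.Agent.CycB.DivFun

variable {X : Scheme.{u}} {δ : X → ℤ}

/-- The difference of the fibres over `0` and `∞` of an integral closed subscheme is a principal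
divisor on the closure of the image of the generic point, or it is zero. -/
theorem exists_divFun_or_eq (hX : Cyc.IsSetup X δ)
    (δP : ↥(CohB1.ProjSpaceOver 1 X) → ℤ)
    (hP : Cyc.DeltaCompat (CohB1.ProjSpaceOver.toBase 1 X) δP δ) (k : ℤ) (W : Scheme.{u})
    [IsIntegral W] (ι : W ⟶ CohB1.ProjSpaceOver 1 X) [IsClosedImmersion ι]
    (hW : δP (ι (genericPoint W)) = k + 1)
    (h0 : ι (genericPoint W) ∉ Set.range ⇑(P1.sect X 0))
    (h1 : ι (genericPoint W) ∉ Set.range ⇑(P1.sect X 1)) :
    (δ (CohB1.ProjSpaceOver.toBase 1 X (ι (genericPoint W))) = k + 1 ∧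
      ∃ f : X.residueField (CohB1.ProjSpaceOver.toBase 1 X (ι (genericPoint W))), f ≠ 0 ∧
        ∀ x, Cyc.divFun δ _ f x = Cyc.subschemeFun δ k (pullback.snd ι (P1.sect X 0)) x -
          Cyc.subschemeFun δ k (pullback.snd ι (P1.sect X 1)) x) ∨
    ∀ x, Cyc.subschemeFun δ k (pullback.snd ι (P1.sect X 0)) x =
      Cyc.subschemeFun δ k (pullback.snd ι (P1.sect X 1)) x := by
  have : IsLocallyNoetherian X := hX.1
  let P := CohB1.ProjSpaceOver 1 X
  let π : P ⟶ X := CohB1.ProjSpaceOver.toBase 1 X
  let p : P := ι (genericPoint W)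
  obtain ⟨w, hw, hw'⟩ := exists_factor_genericPoint ι
  have hp : ∀ i, P.fromSpecResidueField p (IsLocalRing.closedPoint (P.residueField p)) ∉
      Set.range (P1.sect X i) := by
    intro i
    rw [Scheme.fromSpecResidueField_apply]
    fin_cases i
    · exact h0
    · exact h1
  obtain ⟨t, ht0, ht⟩ := exists_pt_of_notMem (K := P.residueField p) (Field.toIsField _)
    (P.fromSpecResidueField p) (IsLocalRing.closedPoint (P.residueField p)) hp
  let algK : Algebra (X.residueField (π p)) (P.residueField p) :=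
    (π.residueFieldMap p).hom.toAlgebra
  have hK : P.fromSpecResidueField p ≫ π = Spec.map (CommRingCat.ofHom
      (algebraMap (X.residueField (π p)) (P.residueField p))) ≫
        X.fromSpecResidueField (π p) := by
    exact (Scheme.Hom.SpecMap_residueFieldMap_fromSpecResidueField π p).symm
  have hwt : w ≫ ι = pt 0 (Spec.map (CommRingCat.ofHom
      (algebraMap (X.residueField (π p)) (P.residueField p))) ≫
        X.fromSpecResidueField (π p)) t := by
    rw [hw, ← hK]
    exact ht
  by_cases halg : IsAlgebraic (X.residueField (π p)) t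
  · left
    have hKalg : Algebra.IsAlgebraic (X.residueField (π p)) (P.residueField p) :=
      isAlgebraic_of_isAlgebraic_coord p rfl t ht halg
    have hδ : δ (π p) = k + 1 := by
      obtain ⟨n, hn, hn'⟩ := hP p
      have h2 : Algebra.trdeg (X.residueField (π p)) (P.residueField p) = 0 := trdeg_eq_zero
      have h3 : (n : Cardinal) = 0 := hn.symm.trans h2
      have h4 : n = 0 := by exact_mod_cast h3
      rw [h4] at hn'
      rw [← hW]
      simpa using hn'.symm
    have hne : (minpoly (X.residueField (π p)) t).coeff 0 ≠ 0 :=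
      minpoly.coeff_zero_ne_zero halg.isIntegral ht0
    have key := divFun_eq_sub (K := P.residueField p) hX.2.2 ι w hw' t ht0 halg.isIntegral hwt
      k hδ
    exact ⟨hδ, _, hne, key⟩
  · right
    exact subschemeFun_eq_of_transcendental (K := P.residueField p) (δ := δ) ι w hw' t ht0
      halg hwt k

/-- The images of a locally finite family of points under a quasi-compact morphism. -/
theorem locFin_image {P : Scheme.{u}} (π : P ⟶ X) [QuasiCompact π] {I : Type u} {T : I → P}
    (hT : LocFin T) : LocFin (fun i => π (T i)) := by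
  intro x
  obtain ⟨U, hU, hxU, -⟩ := exists_isAffineOpen_mem_and_subset (X := X) (x := x) (U := ⊤) trivial
  refine ⟨U, U.2, hxU, ?_⟩
  have h1 : IsCompact (π ⁻¹' (U : Set X)) :=
    QuasiCompact.isCompact_preimage (f := π) (U : Set X) U.2 hU.isCompact
  exact hT.finite_of_isCompact h1

/-- A locally finite sum of differences of fibres of integral closed subschemes of `P^1_X` is
rationally equivalent to zero. -/
theorem ratEquivZero_of_family (hX : Cyc.IsSetup X δ)
    (δP : ↥(CohB1.ProjSpaceOver 1 X) → ℤ)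
    (hP : Cyc.DeltaCompat (CohB1.ProjSpaceOver.toBase 1 X) δP δ) (k : ℤ) {I : Type u}
    (W : I → Scheme.{u}) [∀ i, IsIntegral (W i)] (ι : (i : I) → (W i ⟶ CohB1.ProjSpaceOver 1 X))
    [∀ i, IsClosedImmersion (ι i)]
    (hW : ∀ i, δP (ι i (genericPoint (W i))) = k + 1)
    (h0 : ∀ i, ι i (genericPoint (W i)) ∉ Set.range ⇑(P1.sect X 0))
    (h1 : ∀ i, ι i (genericPoint (W i)) ∉ Set.range ⇑(P1.sect X 1))
    (hfin : LocFin (fun i => ι i (genericPoint (W i)))) (m : I → ℤ) (α : AlgebraicCycle X ℤ)
    (hα : ∀ x, α x = ∑ᶠ i, m i * (Cyc.subschemeFun δ k (pullback.snd (ι i) (P1.sect X 0)) x -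
      Cyc.subschemeFun δ k (pullback.snd (ι i) (P1.sect X 1)) x)) :
    Cyc.RatEquivZero δ k α := by
  classical
  have hprop : IsProper (CohB1.ProjSpaceOver.toBase 1 X) :=
    Groth.Agent.Dix.ProjProper.isProper_toBase 1 X
  have hLF := locFin_image (CohB1.ProjSpaceOver.toBase 1 X) hfin
  let π := CohB1.ProjSpaceOver.toBase 1 X
  let A : I → Prop := fun i => δ (π (ι i (genericPoint (W i)))) = k + 1 ∧
      ∃ f : X.residueField (π (ι i (genericPoint (W i)))), f ≠ 0 ∧
        ∀ x, Cyc.divFun δ _ f x = Cyc.subschemeFun δ k (pullback.snd (ι i) (P1.sect X 0)) x -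
          Cyc.subschemeFun δ k (pullback.snd (ι i) (P1.sect X 1)) x
  have hA : ∀ i, A i ∨ ∀ x, Cyc.subschemeFun δ k (pullback.snd (ι i) (P1.sect X 0)) x =
      Cyc.subschemeFun δ k (pullback.snd (ι i) (P1.sect X 1)) x := fun i =>
    exists_divFun_or_eq hX δP hP k (W i) (ι i) (hW i) (h0 i) (h1 i)
  refine ratEquivZero_of (ι := {i : I // A i}) (fun i => π (ι i.1 (genericPoint (W i.1))))
    (fun i => (Classical.choose i.2.2) ^ (m i.1)) (fun i => i.2.1)
    (fun i => zpow_ne_zero _ (Classical.choose_spec i.2.2).1)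
    (hLF.comp (g := fun i : {i : I // A i} => i.1) Subtype.val_injective) α ?_
  intro x
  rw [hα]
  have h2 : ∀ i : {i : I // A i}, Cyc.divFun δ (π (ι i.1 (genericPoint (W i.1))))
      ((Classical.choose i.2.2) ^ (m i.1)) x =
      m i.1 * (Cyc.subschemeFun δ k (pullback.snd (ι i.1) (P1.sect X 0)) x -
      Cyc.subschemeFun δ k (pullback.snd (ι i.1) (P1.sect X 1)) x) := by
    intro i
    rw [OrdFrac.divFun_zpow, ← (Classical.choose_spec i.2.2).2 x]
    simp
  rw [finsum_congr h2]
  have h3 := finsum_subtype_eq_finsum_cond (f := fun i => m i *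
    (Cyc.subschemeFun δ k (pullback.snd (ι i) (P1.sect X 0)) x -
      Cyc.subschemeFun δ k (pullback.snd (ι i) (P1.sect X 1)) x)) (fun i => A i)
  refine Eq.trans ?_ h3.symm
  refine finsum_congr fun i => ?_
  by_cases hi : A i
  · rw [finsum_eq_if, if_pos hi]
  · rw [finsum_eq_if, if_neg hi, (hA i).resolve_left hi x, sub_self, mul_zero]

/-- The same for closures of points, with the two sums given separately. -/
theorem ratEquiv_of_points (hX : Cyc.IsSetup X δ)
    (δP : ↥(CohB1.ProjSpaceOver 1 X) → ℤ)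
    (hP : Cyc.DeltaCompat (CohB1.ProjSpaceOver.toBase 1 X) δP δ) (k : ℤ) {I : Type u}
    (T : I → ↥(CohB1.ProjSpaceOver 1 X)) (hT : ∀ i, δP (T i) = k + 1)
    (hT' : ∀ i, T i ∉ Set.range ⇑(P1.sect X 0) ∪ Set.range ⇑(P1.sect X 1))
    (hfin : LocFin T) (m : I → ℤ) (α β : AlgebraicCycle X ℤ)
    (hα : ∀ x, α x = ∑ᶠ i, m i *
      Cyc.subschemeFun δ k (pullback.snd (PtClosure.ptClι (T i)) (P1.sect X 0)) x)
    (hβ : ∀ x, β x = ∑ᶠ i, m i *
      Cyc.subschemeFun δ k (pullback.snd (PtClosure.ptClι (T i)) (P1.sect X 1)) x) :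
    Cyc.RatEquiv δ k α β := by
  refine ratEquivZero_of_family hX δP hP k (fun i => PtClosure.ptCl (T i))
    (fun i => PtClosure.ptClι (T i)) (fun i => ?_) (fun i => ?_) (fun i => ?_) ?_ m (α - β) ?_
  · rw [PtClosure.ptClι_genericPoint]; exact hT i
  · rw [PtClosure.ptClι_genericPoint]; exact fun h => hT' i (Or.inl h)
  · rw [PtClosure.ptClι_genericPoint]; exact fun h => hT' i (Or.inr h)
  · simp only [PtClosure.ptClι_genericPoint]; exact hfin
  · intro x
    have h1 : (α - β) x = α x - β x := rfl
    rw [h1, hα, hβ, ← finsum_sub_distrib]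
    · exact finsum_congr fun i => (mul_sub _ _ _).symm
    · refine (hfin.finite_specializes (P1.sect X 0 x)).subset fun i hi => ?_
      by_contra h
      apply hi
      change m i * _ = 0
      rw [subschemeFun_eq_zero_of_notMem, mul_zero]
      rintro ⟨z, hz⟩
      apply h
      have h2 := PtClosure.ptClι_specializes (T i) (pullback.fst _ (P1.sect X 0) z)
      rw [← Scheme.Hom.comp_apply, pullback.condition, Scheme.Hom.comp_apply, hz] at h2
      exact h2
    · refine (hfin.finite_specializes (P1.sect X 1 x)).subset fun i hi => ?_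
      by_contra h
      apply hi
      change m i * _ = 0
      rw [subschemeFun_eq_zero_of_notMem, mul_zero]
      rintro ⟨z, hz⟩
      apply h
      have h2 := PtClosure.ptClι_specializes (T i) (pullback.fst _ (P1.sect X 1) z)
      rw [← Scheme.Hom.comp_apply, pullback.condition, Scheme.Hom.comp_apply, hz] at h2
      exact h2

end Groth.Agent.Old.H25.CoreA
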