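import Groth.Agent.CycA.MovFib
import Groth.Agent.CycA.SectPt
import Groth.Agent.CycB.LenPt
import Groth.Agent.CycB.C1Fin
import Mathlib.RingTheory.Ideal.AssociatedPrime.Localization

/-!
# Multiplicities of the pullback of a closed subscheme along a section

For `ι : Z ⟶ P`, `σ : X ⟶ P` closed immersions with `σ` locally cut out by one equation, the
multiplicity of `Z ×_P X` at `x` is the sum over the points `ξ` of `Z` of `δ`-dimension one more
of the multiplicities of the closures of the `ι ξ`, weighted by the length of `O_{Z,ξ}`.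
-/

set_option autoImplicit false

universe u

open CategoryTheory AlgebraicGeometry CategoryTheory.Limits

namespace Groth.Agent.Old.H25.SubFib

open Groth.Agent.CycB Groth.Agent.CycB.LocQuot Groth.Agent.CycA

variable {X P Z : Scheme.{u}}

section StalkQ

variable (ι : Z ⟶ P) {z : Z} {y : P} (h : ι z = y)

/-- The map `O_{P,y} → O_{Z,z}` for `ι z = y`. -/
noncomputable def stalkQ : P.presheaf.stalk y ⟶ Z.presheaf.stalk z :=
  P.presheaf.stalkSpecializes (specializes_of_eq h) ≫ ι.stalkMap z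

theorem stalkQ_rfl (z : Z) : stalkQ ι (rfl : ι z = ι z) = ι.stalkMap z := by
  unfold stalkQ
  rw [TopCat.Presheaf.stalkSpecializes_refl, Category.id_comp]

theorem stalkQ_surjective [SurjectiveOnStalks ι] : Function.Surjective (stalkQ ι h).hom := by
  subst h
  rw [stalkQ_rfl]
  exact ι.stalkMap_surjective z

theorem ker_stalkQ [IsClosedImmersion ι] :
    RingHom.ker (stalkQ ι h).hom = IntMult.stalkIdeal ι.ker y := by
  subst h
  rw [stalkQ_rfl, StalkIdeal.stalkIdeal_ker]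

theorem specMap_stalkQ {ξ : Z} (hξ : ξ ⤳ z) (hξ' : ι ξ ⤳ y) (a : P.presheaf.stalk y) :
    Cyc.specMap z ξ hξ ((stalkQ ι h).hom a) =
      (ι.residueFieldMap ξ).hom (Cyc.specMap y (ι ξ) hξ' a) := by
  subst h
  rw [stalkQ_rfl]
  exact (DivNat.residueFieldMap_specMap ι z ξ hξ a).symm

theorem ordAt_stalkQ [SurjectiveOnStalks ι] {ξ : Z} (hξ : ξ ⤳ z) (hξ' : ι ξ ⤳ y)
    (a : P.presheaf.stalk y) :
    Cyc.ordAt z ξ hξ (Cyc.specMap z ξ hξ ((stalkQ ι h).hom a)) =
      Cyc.ordAt y (ι ξ) hξ' (Cyc.specMap y (ι ξ) hξ' a) := by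
  rw [specMap_stalkQ ι h hξ hξ']
  subst h
  exact DivNat.ordAt_residueFieldMap ι z ξ hξ _

theorem mem_ker_stalkQ {ξ : Z} (hξ : ξ ⤳ z) (hξ' : ι ξ ⤳ y) (a : P.presheaf.stalk y) :
    (stalkQ ι h).hom a ∈ RingHom.ker (Cyc.specMap z ξ hξ) ↔
      a ∈ RingHom.ker (Cyc.specMap y (ι ξ) hξ') := by
  rw [RingHom.mem_ker, RingHom.mem_ker, specMap_stalkQ ι h hξ hξ']
  exact map_eq_zero_iff _ (ι.residueFieldMap ξ).hom.injective

end StalkQ

section Local

variable (ι : Z ⟶ P) [IsClosedImmersion ι] (σ : X ⟶ P) [IsClosedImmersion σ] {δ : X → ℤ} {k : ℤ}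
  {x : X} (hx : δ x = k) {t : P.presheaf.stalk (σ x)}
  (ht : RingHom.ker (σ.stalkMap x).hom = Ideal.span {t})

include hx ht in
theorem subschemeFun_snd_eq_ord {z : Z} (hz : ι z = σ x) :
    Cyc.subschemeFun δ k (pullback.snd ι σ) x =
      ((Ring.ord (Z.presheaf.stalk z) ((stalkQ ι hz).hom t)).toNat : ℤ) := by
  rw [SectPt.subschemeFun_closed δ k _ x hx, SectPt.stalkIdeal_snd,
    MovFib.length_map_eq _ (σ.stalkMap_surjective x), ht, ← ker_stalkQ ι hz, sup_comm,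
    ← MovFib.length_map_eq _ (stalkQ_surjective ι hz), Ideal.map_span, Set.image_singleton]
  rfl

include hx ht in
theorem subschemeFun_ptClι_eq_ordAt [IsLocallyNoetherian P] {δP : P → ℤ}
    (hδP : Cyc.IsDimFun P δP) {T : P} (hT : T ⤳ σ x) (hd : δP (σ x) + 1 = δP T)
    (htT : t ∉ RingHom.ker (Cyc.specMap (σ x) T hT)) :
    Cyc.subschemeFun δ k (pullback.snd (PtClosure.ptClι T) σ) x =
      Cyc.ordAt (σ x) T hT (Cyc.specMap (σ x) T hT t) := by
  have h1 := krullDimLE_one_locQuot hδP hT hd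
  have hg' : (Ideal.Quotient.mk (RingHom.ker (Cyc.specMap (σ x) T hT)) t) ≠ 0 := by
    intro h0
    rw [Ideal.Quotient.eq_zero_iff_mem] at h0
    exact htT h0
  rw [MovFib.subschemeFun_ptClι _ _ _ _ _ hx,
    MovFib.length_map_eq _ (σ.stalkMap_surjective x), ht, StalkIdeal.stalkIdeal_ptIdeal hT]
  have h5 : Cyc.ordAt (σ x) T hT (algebraMap (Cyc.LocQuot (σ x) T hT) (P.residueField T)
      (Ideal.Quotient.mk (RingHom.ker (Cyc.specMap (σ x) T hT)) t)) =
      ((Ring.ord (Cyc.LocQuot (σ x) T hT)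
        (Ideal.Quotient.mk (RingHom.ker (Cyc.specMap (σ x) T hT)) t)).toNat : ℤ) :=
    Groth.Agent.CycB.C1Basic.ordFrac_algebraMap _ _ hg'
  rw [← Groth.Agent.CycB.C1Basic.algebraMap_locQuot_mk hT t, h5]
  have hq : Function.Surjective (Ideal.Quotient.mk (RingHom.ker (Cyc.specMap (σ x) T hT))) :=
    Ideal.Quotient.mk_surjective
  have h6 := MovFib.length_map_eq _ hq (Ideal.span {t})
  rw [Ideal.mk_ker, Ideal.map_span, Set.image_singleton, sup_comm] at h6
  unfold Ring.ord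
  rw [h6]

omit [IsClosedImmersion ι] [IsClosedImmersion σ] in
theorem subschemeFun_snd_eq_zero_of_notMem (hx' : σ x ∉ Set.range ι) :
    Cyc.subschemeFun δ k (pullback.snd ι σ) x = 0 := by
  refine C1Fin.subschemeFun_apply_notMem _ δ k x ?_
  rintro ⟨z, rfl⟩
  exact hx' ⟨pullback.fst ι σ z, by
    rw [← Scheme.Hom.comp_apply, ← Scheme.Hom.comp_apply, pullback.condition]⟩

end Local

section Assoc

/-- Associated primes of `O_{Z,z}` give associated points of `Z`. -/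
theorem isAssociatedPrime_of_mem {z ζ : Z} (h : ζ ⤳ z)
    (hass : IsAssociatedPrime (RingHom.ker (Cyc.specMap z ζ h)) (Z.presheaf.stalk z)) :
    IsAssociatedPrime (IsLocalRing.maximalIdeal (Z.presheaf.stalk ζ)) (Z.presheaf.stalk ζ) := by
  have h1 := isLocalization_stalkSpecializes h
  let := (Z.presheaf.stalkSpecializes h).hom.toAlgebra
  refine Module.associatedPrimes.mem_associatedPrimes_of_comap_mem_associatedPrimes_of_isLocalizedModule
    (RingHom.ker (Cyc.specMap z ζ h)).primeCompl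
    (Algebra.linearMap (Z.presheaf.stalk z) (Z.presheaf.stalk ζ)) _ ?_
  rw [AssociatedPrimes.mem_iff]
  have h2 : (IsLocalRing.maximalIdeal (Z.presheaf.stalk ζ)).comap
      (algebraMap (Z.presheaf.stalk z) (Z.presheaf.stalk ζ)) =
      RingHom.ker (Cyc.specMap z ζ h) := by
    rw [← primeOf_asIdeal]
    rfl
  rw [h2]
  exact hass

theorem mem_nonZeroDivisors_of_assoc [IsLocallyNoetherian Z] {z : Z} (g : Z.presheaf.stalk z)
    (H : ∀ (ζ : Z) (h : ζ ⤳ z), IsAssociatedPrime (IsLocalRing.maximalIdeal (Z.presheaf.stalk ζ))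
      (Z.presheaf.stalk ζ) → g ∉ RingHom.ker (Cyc.specMap z ζ h)) :
    g ∈ nonZeroDivisors (Z.presheaf.stalk z) := by
  by_contra hg
  have h1 : g ∈ (nonZeroDivisors (Z.presheaf.stalk z) : Set (Z.presheaf.stalk z))ᶜ := hg
  rw [← biUnion_associatedPrimes_eq_compl_nonZeroDivisors] at h1
  simp only [Set.mem_iUnion] at h1
  obtain ⟨Q, hQ, hgQ⟩ := h1
  have hQ' : Q.IsPrime := hQ.1
  obtain ⟨ζ, hζ, rfl⟩ := exists_eq_ker Q
  exact H ζ hζ (isAssociatedPrime_of_mem hζ hQ) hgQ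

end Assoc

section Main

/-- The multiplicities of the pullback of `Z` along `σ` in terms of the points of `Z` of
`δ`-dimension `k + 1`. -/
theorem subschemeFun_snd_eq_finsum [IsLocallyNoetherian P] [IsLocallyNoetherian Z] (ι : Z ⟶ P)
    [IsClosedImmersion ι]
    (σ : X ⟶ P) [IsClosedImmersion σ] {δ : X → ℤ} {δP : P → ℤ} (hδP : Cyc.IsDimFun P δP)
    (hδZ : Cyc.IsDimFun Z (fun z => δP (ι z))) (k : ℤ)
    (hδ : ∀ x, δP (σ x) = δ x) (hprin : ∀ x, ∃ t, RingHom.ker (σ.stalkMap x).hom = Ideal.span {t})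
    (hZ : ∀ z : Z, δP (ι z) ≤ k + 1) (hZσ : ∀ z : Z, ι z ∈ Set.range σ → δP (ι z) ≤ k)
    (hass : ∀ z : Z, IsAssociatedPrime (IsLocalRing.maximalIdeal (Z.presheaf.stalk z))
      (Z.presheaf.stalk z) → ι z ∉ Set.range σ ∨ δP (ι z) < k) (x : X) :
    Cyc.subschemeFun δ k (pullback.snd ι σ) x =
      ∑ᶠ ζ : {ζ : Z // δP (ι ζ) = k + 1},
        ((Module.length (Z.presheaf.stalk ζ.1) (Z.presheaf.stalk ζ.1)).toNat : ℤ) *
          Cyc.subschemeFun δ k (pullback.snd (PtClosure.ptClι (ι ζ.1)) σ) x := by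
  classical
  by_cases hx : δ x = k
  swap
  · rw [Cyc.subschemeFun, if_neg hx, finsum_eq_zero_of_forall_eq_zero]
    intro ζ
    rw [Cyc.subschemeFun, if_neg hx, mul_zero]
  by_cases hmem : σ x ∈ Set.range ι
  swap
  · rw [subschemeFun_snd_eq_zero_of_notMem ι σ hmem, finsum_eq_zero_of_forall_eq_zero]
    intro ζ
    rw [MovFib.subschemeFun_ptClι_eq_zero, mul_zero]
    intro h
    exact hmem (h.mem_closed ι.isClosedEmbedding.isClosed_range ⟨_, rfl⟩)
  obtain ⟨z, hz⟩ := hmem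
  obtain ⟨t, ht⟩ := hprin x
  have hzk : δP (ι z) = k := by rw [hz, hδ, hx]
  have hspec : ∀ ζ : Z, ζ ⤳ z ↔ ι ζ ⤳ σ x := by
    intro ζ
    rw [← hz]
    exact (DivNat.specializes_iff ι z ζ).symm
  have hg : (stalkQ ι hz).hom t ∈ nonZeroDivisors (Z.presheaf.stalk z) := by
    refine mem_nonZeroDivisors_of_assoc _ fun ζ hζ hζass hmem => ?_
    rcases hass ζ hζass with h1 | h1
    · rw [mem_ker_stalkQ ι hz hζ ((hspec ζ).1 hζ)] at hmem
      apply h1
      rw [SectPt.mem_range_iff_ker_le σ ((hspec ζ).1 hζ), ht, Ideal.span_singleton_le_iff_mem]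
      exact hmem
    · have h2 := le_of_specializes hδZ hζ
      simp only [hzk] at h2
      omega
  rw [subschemeFun_snd_eq_ord ι σ hx ht hz,
    LenPt.ord_toNat_eq_finsum_pt hδZ z (fun z' _ => by have := hZ z'; omega) _ hg]
  have h3 := finsum_subtype_eq_finsum_cond (f := fun ζ : Z =>
    ((Module.length (Z.presheaf.stalk ζ) (Z.presheaf.stalk ζ)).toNat : ℤ) *
          Cyc.subschemeFun δ k (pullback.snd (PtClosure.ptClι (ι ζ)) σ) x)
    (fun ζ => δP (ι ζ) = k + 1)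
  rw [h3]
  refine finsum_congr fun ζ => ?_
  rw [finsum_eq_if]
  by_cases hζ : ζ ⤳ z ∧ δP (ι z) + 1 = δP (ι ζ)
  · rw [dif_pos hζ, if_pos (by rw [← hζ.2, hzk])]
    congr 1
    have hζ' := (hspec ζ).1 hζ.1
    rw [ordAt_stalkQ ι hz hζ.1 hζ' t]
    refine (subschemeFun_ptClι_eq_ordAt σ hx ht hδP hζ' ?_ ?_).symm
    · rw [hδ, hx, ← hζ.2, hzk]
    · intro hmem
      have h4 : ι ζ ∈ Set.range σ := by
        rw [SectPt.mem_range_iff_ker_le σ hζ', ht, Ideal.span_singleton_le_iff_mem]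
        exact hmem
      have h5 := hZσ ζ h4
      have h6 := hζ.2
      omega
  · rw [dif_neg hζ]
    split_ifs with h4
    · have h5 : ¬ ζ ⤳ z := fun h => hζ ⟨h, by rw [hzk, h4]⟩
      rw [MovFib.subschemeFun_ptClι_eq_zero, mul_zero]
      rwa [← hspec]
    · rfl

/-- The points of `Z` of maximal `δ`-dimension form a locally finite family in `P`. -/
theorem locFin_top [IsLocallyNoetherian Z] (ι : Z ⟶ P) [IsClosedImmersion ι] {δP : P → ℤ}
    (hδZ : Cyc.IsDimFun Z (fun z => δP (ι z))) (k : ℤ) (hZ : ∀ z : Z, δP (ι z) ≤ k + 1) :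
    DivFun.LocFin (fun ζ : {ζ : Z // δP (ι ζ) = k + 1} => ι ζ.1) := by
  have hmin : ∀ ζ : {ζ : Z // δP (ι ζ) = k + 1}, ∀ z : Z, z ⤳ ζ.1 → z = ζ.1 := by
    intro ζ z hz
    by_contra hne
    have h1 := lt_of_specializes hδZ hz hne
    have h2 := hZ z
    have h3 := ζ.2
    simp only at h1
    omega
  intro p
  by_cases hp : p ∈ Set.range ι
  · obtain ⟨z, rfl⟩ := hp
    obtain ⟨V, hV, hzV, hfin⟩ := C1Fin.locallyFinite_minimal z
    obtain ⟨U, hU, hUV⟩ := ι.isClosedEmbedding.isInducing.isOpen_iff.1 hV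
    refine ⟨U, hU, ?_, ?_⟩
    · have : z ∈ ι ⁻¹' U := by rw [hUV]; exact hzV
      exact this
    · refine Set.Finite.of_finite_image (f := Subtype.val) (hfin.subset ?_)
        Subtype.val_injective.injOn
      rintro _ ⟨ζ, hζ, rfl⟩
      refine ⟨?_, hmin ζ⟩
      rw [← hUV]
      exact hζ
  · refine ⟨(Set.range ι)ᶜ, ι.isClosedEmbedding.isClosed_range.isOpen_compl, hp, ?_⟩
    convert Set.finite_empty
    rw [Set.eq_empty_iff_forall_notMem]
    intro ζ hζ
    exact hζ ⟨_, rfl⟩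

end Main

end Groth.Agent.Old.H25.SubFib
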